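import Mathlib
import Cfsg.Agent.H540.E8C.L13.Iface2
import Cfsg.Agent.H597.E8Form
import Cfsg.Agent.Lib.GenFitting

/-!
# S5919, the row `PSL₂(13)`: the end game (helper108)
-/

set_option autoImplicit false
set_option maxRecDepth 100000

namespace Cfsg.Agent.H108.L13

open Cfsg Cfsg.Lie Module
open Cfsg.Agent Cfsg.Agent.H540.E8C Cfsg.Agent.H540.E8C.End Cfsg.Agent.H540.E8C.L13

universe u

/-! ### Counting eigenvectors -/

section Abs

variable {G V : Type*} [Group G] [AddCommGroup V] [Finite V] (A : G → V → V)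

/-- many common eigenvectors with eigenvalues `±1` of a group `H` with a subgroup `S` of index at most 2 -/
theorem card_abs (hmul : ∀ g h v, A (g * h) v = A g (A h v))
    (hadd : ∀ g v w, A g (v + w) = A g v + A g w) (hneg : ∀ g v, A g (-v) = - A g v) (h3' : ∀ v : V, v + v = -v)
    {S H : Subgroup G} (hn : ∀ h ∈ H, ∀ s ∈ S, h⁻¹ * s * h ∈ S)
    (h2 : ∀ a ∈ H, ∀ b ∈ H, a ∉ S → b ∉ S → a * b ∈ S) :
    ∃ x y : ℕ, {v : V | ∀ s ∈ S, A s v = v}.ncard ≤ x * y ∧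
      x + y ≤ {b : V | b ≠ 0 ∧ (∀ s ∈ S, A s b = b) ∧ ∀ g ∈ H, A g b = b ∨ A g b = -b}.ncard + 2 := by
  have h3 : ∀ v : V, v + v + v = 0 := fun v => by rw [h3' v, neg_add_cancel]
  -- the coset representative
  obtain ⟨δ, hδH, hδ2, hδ⟩ : ∃ δ ∈ H, δ * δ ∈ S ∧ ∀ g ∈ H, g ∈ S ∨ δ⁻¹ * g ∈ S := by
    by_cases hHS : H ≤ S
    · exact ⟨1, H.one_mem, by rw [one_mul]; exact S.one_mem, fun g hg => Or.inl (hHS hg)⟩
    · obtain ⟨δ, hδ, hδS⟩ := SetLike.not_le_iff_exists.1 hHS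
      refine ⟨δ, hδ, h2 δ hδ δ hδ hδS hδS, fun g hg => ?_⟩
      by_cases hgS : g ∈ S
      · exact Or.inl hgS
      · exact Or.inr (h2 _ (H.inv_mem hδ) g hg (fun h => hδS (inv_mem_iff.1 h)) hgS)
  set W : Set V := {v : V | ∀ s ∈ S, A s v = v} with hW
  have hDW : ∀ v ∈ W, A δ v ∈ W := by
    intro v hv s hs
    have e : s * δ = δ * (δ⁻¹ * s * δ) := by group
    rw [← hmul, e, hmul, hv _ (hn δ hδH s hs)]
  have hDD : ∀ v ∈ W, A δ (A δ v) = v := by
    intro v hv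
    rw [← hmul]
    exact hv _ hδ2
  have haddW : ∀ v ∈ W, ∀ w ∈ W, v + w ∈ W := by
    intro v hv w hw s hs
    rw [hadd, hv s hs, hw s hs]
  have hnegW : ∀ v ∈ W, -v ∈ W := by
    intro v hv s hs
    rw [hneg, hv s hs]
  set Wp : Set V := {v : V | v ∈ W ∧ A δ v = v} with hWp
  set Wm : Set V := {v : V | v ∈ W ∧ A δ v = -v} with hWm
  refine ⟨Wp.ncard, Wm.ncard, ?_, ?_⟩
  · have hp : ∀ v ∈ W, v + A δ v ∈ Wp := by
      intro v hv
      refine ⟨haddW _ hv _ (hDW v hv), ?_⟩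
      rw [hadd, hDD v hv, add_comm]
    have hm : ∀ v ∈ W, v + -A δ v ∈ Wm := by
      intro v hv
      refine ⟨haddW _ hv _ (hnegW _ (hDW v hv)), ?_⟩
      rw [hadd, hneg, hDD v hv]
      abel
    rw [← Nat.card_coe_set_eq W, ← Nat.card_coe_set_eq Wp, ← Nat.card_coe_set_eq Wm, ← Nat.card_prod]
    refine Nat.card_le_card_of_injective (fun v : W => ((⟨v.1 + A δ v.1, hp v.1 v.2⟩ : Wp),
      (⟨v.1 + -A δ v.1, hm v.1 v.2⟩ : Wm))) ?_
    intro v w hvw
    have e1 : v.1 + A δ v.1 = w.1 + A δ w.1 := congrArg Subtype.val (congrArg Prod.fst hvw)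
    have e2 : v.1 + -A δ v.1 = w.1 + -A δ w.1 := congrArg Subtype.val (congrArg Prod.snd hvw)
    have e3 : v.1 + v.1 = w.1 + w.1 := by
      have e4 : (v.1 + A δ v.1) + (v.1 + -A δ v.1) = v.1 + v.1 := by abel
      have e5 : (w.1 + A δ w.1) + (w.1 + -A δ w.1) = w.1 + w.1 := by abel
      rw [← e4, ← e5, e1, e2]
    apply Subtype.ext
    have e6 : ∀ v : V, v = -(v + v) := fun v => by
      rw [eq_neg_iff_add_eq_zero, add_comm]
      exact h3 v
    rw [e6 v.1, e6 w.1, e3]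
  · set B : Set V := {b : V | b ≠ 0 ∧ (∀ s ∈ S, A s b = b) ∧ ∀ g ∈ H, A g b = b ∨ A g b = -b} with hB
    have hsub : Wp ∪ Wm ⊆ insert 0 B := by
      intro v hv
      by_cases hv0 : v = 0
      · exact Or.inl hv0
      · right
        have hvW : v ∈ W := by
          rcases hv with hv | hv
          · exact hv.1
          · exact hv.1
        have hvD : A δ v = v ∨ A δ v = -v := by
          rcases hv with hv | hv
          · exact Or.inl hv.2
          · exact Or.inr hv.2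
        refine ⟨hv0, hvW, fun g hg => ?_⟩
        rcases hδ g hg with h | h
        · exact Or.inl (hvW g h)
        · have e : g = δ * (δ⁻¹ * g) := by group
          rw [e, hmul, hvW _ h]
          exact hvD
    have hint : Wp ∩ Wm ⊆ {0} := by
      rintro v ⟨h4, h5⟩
      have h6 : v = -v := h4.2.symm.trans h5.2
      have h7 : v + v = 0 := by
        nth_rw 1 [h6]
        exact neg_add_cancel v
      have h8 := h3 v
      rw [h7, zero_add] at h8
      exact h8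
    have c1 := Set.ncard_union_add_ncard_inter Wp Wm (Set.toFinite _) (Set.toFinite _)
    have c2 : (Wp ∪ Wm).ncard ≤ (insert 0 B).ncard := Set.ncard_le_ncard hsub (Set.toFinite _)
    have c3 : (insert 0 B).ncard ≤ B.ncard + 1 := Set.ncard_insert_le 0 B
    have c4 : (Wp ∩ Wm).ncard ≤ 1 := (Set.ncard_le_ncard hint (Set.toFinite _)).trans (by rw [Set.ncard_singleton])
    omega

end Abs

theorem sixteen {x y n : ℕ} (h : 3 ^ 4 ≤ x * y) (h' : x + y ≤ n + 2) : 16 ≤ n := by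
  by_contra hcon
  have h1 : x + y ≤ 17 := by omega
  nlinarith [sq_nonneg ((x : ℤ) - y), Nat.mul_le_mul h1 h1, mul_self_nonneg ((x : ℤ) - y)]

theorem many {x y n : ℕ} (h : 3 ^ 11 ≤ x * y) (h' : x + y ≤ n + 2) : 484 ≤ n := by
  by_contra hcon
  have h1 : x + y ≤ 485 := by omega
  nlinarith [sq_nonneg ((x : ℤ) - y), Nat.mul_le_mul h1 h1, mul_self_nonneg ((x : ℤ) - y)]

/-! ### Numerics -/

theorem exists_form {G : Type*} [Group G] (F : G →* E) :
    ∃ B : LinearMap.BilinForm (ZMod 3) LL, B.Nondegenerate ∧ B.IsSymm ∧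
      ∀ g v v', B (rp F g v) (rp F g v') = B v v' := by
  obtain ⟨J, hJ, hdet, hinv⟩ := H597.E8Form.form (ZMod 3)
  refine ⟨Matrix.toBilin' J, ?_, ?_, ?_⟩
  · rw [LinearMap.BilinForm.nondegenerate_toBilin'_iff_det_ne_zero]
    exact hdet.ne_zero
  · constructor
    intro x y
    rw [Matrix.toBilin'_apply', Matrix.toBilin'_apply', Matrix.dotProduct_mulVec,
      ← Matrix.mulVec_transpose, hJ, dotProduct_comm]
  · intro g v w
    have h1 := hinv _ (F g).2
    rw [Matrix.toBilin'_apply', Matrix.toBilin'_apply', rp_apply, rp_apply]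
    conv_rhs => rw [← h1, Matrix.mul_assoc, ← Matrix.mulVec_mulVec, Matrix.dotProduct_mulVec, Matrix.vecMul_transpose,
      ← Matrix.mulVec_mulVec]

/-- the dimension of the space of fixed vectors -/
theorem num_aux {g w p x y a u : ℕ} {t2 t7 : ℤ} (ht2 : t2 = -8 ∨ t2 = 24) (ht7 : t7 = 3 ∨ t7 = 52)
    (e1 : 14 * (g : ℤ) = 248 + 6 * t7 + 7 * t2) (e2 : 2 * (w : ℤ) = u - t2) (e3 : 4 * (p : ℤ) = 248 + 3 * t2)
    (r1 : 2 * x ≤ 3 * a + y) (r2 : 3 * g + w + y ≤ p + 2 * x) :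
    (20 ≤ u → 1 ≤ a) ∧ (38 ≤ u → 4 ≤ a) ∧ (80 ≤ u → 11 ≤ a) := by
  rcases ht2 with rfl | rfl <;> rcases ht7 with rfl | rfl <;> refine ⟨fun h => ?_, fun h => ?_, fun h => ?_⟩ <;> omega

theorem dims (h1 : R1) (h2 : R2) (h3 : Num13) (F : Q →* E) (hF : ∀ g, F g = 1 ↔ g = 1 ∨ g = -1) :
    ((Partner 13 (F (uu 1)) ∧ 1 ≤ finrank (ZMod 3) (fixP (rp F) fun _ => True)) ∨
      (16 * Nat.card ↥(Subgroup.centralizer {F (uu 1)}) > 13 * Nat.card {v : LL // ac (F (uu 1)) v = v} ∧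
        4 ≤ finrank (ZMod 3) (fixP (rp F) fun _ => True)) ∨
      (484 * Nat.card ↥(Subgroup.centralizer {F (uu 1)}) > 13 * Nat.card {v : LL // ac (F (uu 1)) v = v} ∧
        11 ≤ finrank (ZMod 3) (fixP (rp F) fun _ => True))) := by
  have hm1 : rp F (-1) = 1 := by
    have h0 : F (-1) = 1 := (hF (-1)).2 (Or.inr rfl)
    refine LinearMap.ext fun v => ?_
    show ac (F (-1)) v = v
    rw [h0, ac_one]
  obtain ⟨B, hB1, hB2, hB3⟩ := exists_form F
  have r1 := h1 LL (rp F) hm1 B hB1 hB2 hB3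
  have r2 := h2 LL (rp F) hm1
  obtain ⟨⟨t2, t7, ht2, ht7, e1, e2, e3⟩, h4, h5⟩ := h3 F hF
  obtain ⟨c1, c2, c3⟩ := num_aux ht2 ht7 e1 e2 e3 r1 r2
  rcases h4 with ⟨h6, h7⟩ | ⟨h6, h7⟩ | ⟨h6, h7⟩
  · exact Or.inl ⟨h7, c1 (by omega)⟩
  · refine Or.inr (Or.inl ⟨?_, c2 (by omega)⟩)
    rw [h5, h6]
    calc 13 * 3 ^ 38 < 16 * 1360894629560719968 := by norm_num
      _ ≤ _ := Nat.mul_le_mul_left 16 h7
  · refine Or.inr (Or.inr ⟨?_, c3 (by omega)⟩)
    rw [h5, h6]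
    calc 13 * 3 ^ 80 < 484 * 18743628421389393110651003031810837312 := by norm_num
      _ ≤ _ := Nat.mul_le_mul_left 484 h7

/-! ### The end game -/

theorem uu_pow (n : ℕ) : (uu 1) ^ n = uu n := by
  induction n with
  | zero =>
    rw [pow_zero, Nat.cast_zero]
    apply Subtype.ext
    show (1 : Matrix (Fin 2) (Fin 2) (ZMod 13)) = !![1, 0; 0, 1]
    exact Matrix.one_fin_two
  | succ n ih =>
    rw [pow_succ, ih]
    apply Subtype.ext
    show !![1, (n : ZMod 13); 0, 1] * !![1, 1; 0, 1] = !![1, ((n + 1 : ℕ) : ZMod 13); 0, 1]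
    rw [Matrix.mul_fin_two]
    push_cast
    ext i j
    fin_cases i <;> fin_cases j <;> simp [add_comm]

/-- the group theory -/
structure GP {G : Type*} [Group G] (H S : Subgroup G) (y : G) : Prop where
  le : S ≤ H
  nm : H ≤ Subgroup.normalizer (S : Set G)
  cj : ∀ h ∈ H, ∀ s ∈ S, h⁻¹ * s * h ∈ S
  two : ∀ a ∈ H, ∀ b ∈ H, a ∉ S → b ∉ S → a * b ∈ S
  mem : y ∈ S
  ne : y ≠ 1
  cent : Nat.card ↥(Subgroup.centralizer {y} ⊓ H) ≤ 13
  zp : ∀ x ∈ H, Commute y x → x ∈ Subgroup.zpowers y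

theorem gp {G : Type*} [Group G] [Finite G] {H : Subgroup G} (φ : Q →* ↥H)
    (hN : φ.range.Normal) (hφ1 : ∀ g, φ g = 1 ↔ g = 1 ∨ g = -1)
    (hφ2 : ∀ a b : ↥H, a ∉ φ.range → b ∉ φ.range → a * b ∈ φ.range)
    (hφc : Nat.card ↥(Subgroup.centralizer ({φ (uu 1)} : Set ↥H)) ≤ 13) :
    GP H (H.subtype.comp φ).range (H.subtype (φ (uu 1))) := by
  obtain ⟨y, hy⟩ : ∃ y : ↥H, y = φ (uu 1) := ⟨_, rfl⟩
  have hy' : (H.subtype (φ (uu 1)) : G) = (y : G) := by rw [hy]; rfl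
  rw [hy']
  rw [← hy] at hφc
  obtain ⟨S, hS⟩ : ∃ S : Subgroup G, S = (H.subtype.comp φ).range := ⟨_, rfl⟩
  rw [← hS]
  have hmemS : ∀ g : ↥H, (g : G) ∈ S ↔ g ∈ φ.range := by
    intro g
    rw [hS]
    constructor
    · rintro ⟨q, hq⟩
      exact ⟨q, Subtype.ext hq⟩
    · rintro ⟨q, hq⟩
      exact ⟨q, congrArg Subtype.val hq⟩
  have hSH : S ≤ H := by
    rw [hS]
    rintro _ ⟨q, rfl⟩
    exact (φ q).2
  have hconj : ∀ h ∈ H, ∀ s ∈ S, h * s * h⁻¹ ∈ S := by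
    intro h hh s hs
    have h1 : (⟨s, hSH hs⟩ : ↥H) ∈ φ.range := (hmemS ⟨s, hSH hs⟩).1 hs
    exact (hmemS (⟨h, hh⟩ * ⟨s, hSH hs⟩ * ⟨h, hh⟩⁻¹)).2 (hN.conj_mem _ h1 ⟨h, hh⟩)
  have hconj' : ∀ h ∈ H, ∀ s ∈ S, h⁻¹ * s * h ∈ S := by
    intro h hh s hs
    have := hconj h⁻¹ (H.inv_mem hh) s hs
    rwa [inv_inv] at this
  have hy1 : y ≠ 1 := by
    rw [hy]
    intro h
    rcases (hφ1 _).1 h with h1 | h1
    · have h2 := congrArg (fun g : Q => g.1 0 1) h1
      revert h2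
      decide
    · have h2 := congrArg (fun g : Q => g.1 0 0) h1
      revert h2
      decide
  have hyp : y ^ 13 = 1 := by
    rw [hy, ← map_pow, uu_pow]
    have h1 : uu ((13 : ℕ) : ZMod 13) = 1 := by decide
    rw [h1, map_one]
  have h13 : Fact (Nat.Prime 13) := ⟨by norm_num⟩
  have hyo : orderOf y = 13 := orderOf_eq_prime hyp hy1
  refine ⟨hSH, ?_, hconj', ?_, (hmemS y).2 ⟨uu 1, hy.symm⟩, fun h => hy1 (Subtype.ext h), ?_, ?_⟩
  · intro h hh
    rw [Subgroup.mem_normalizer_iff]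
    intro s
    constructor
    · exact hconj h hh s
    · intro hs
      have := hconj' h hh _ hs
      have e : h⁻¹ * (h * s * h⁻¹) * h = s := by group
      rwa [e] at this
  · intro a ha b hb haS hbS
    exact (hmemS (⟨a, ha⟩ * ⟨b, hb⟩)).2 (hφ2 ⟨a, ha⟩ ⟨b, hb⟩ (fun h => haS ((hmemS ⟨a, ha⟩).2 h))
      (fun h => hbS ((hmemS ⟨b, hb⟩).2 h)))
  · refine le_trans ?_ hφc
    refine Nat.card_le_card_of_injective (fun g => (⟨⟨g.1, g.2.2⟩, ?_⟩ : Subgroup.centralizer ({y} : Set ↥H))) ?_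
    · rw [Subgroup.mem_centralizer_singleton_iff]
      exact Subtype.ext (Subgroup.mem_centralizer_singleton_iff.1 g.2.1)
    · intro g g' h
      have h1 := congrArg (fun z : Subgroup.centralizer ({y} : Set ↥H) => ((z : ↥H) : G)) h
      exact Subtype.ext h1
  · intro x' hx' e2
    have h5 : (⟨x', hx'⟩ : ↥H) ∈ Subgroup.centralizer ({y} : Set ↥H) := by
      rw [Subgroup.mem_centralizer_singleton_iff]
      exact Subtype.ext e2.symm.eq
    have h6 : Subgroup.zpowers y ≤ Subgroup.centralizer ({y} : Set ↥H) := by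
      rw [Subgroup.zpowers_le, Subgroup.mem_centralizer_singleton_iff]
    have h7 : Subgroup.zpowers y = Subgroup.centralizer ({y} : Set ↥H) := by
      apply Subgroup.eq_of_le_of_card_ge h6
      rw [Nat.card_zpowers, hyo]
      exact hφc
    rw [← h7] at h5
    obtain ⟨k, hk⟩ := h5
    exact ⟨k, congrArg Subtype.val hk⟩

theorem lin3 (v : LL) : v + v = -v := by
  funext i
  have h4 : ∀ c : ZMod 3, c + c = -c := by decide
  exact h4 (v i)

/-- the common eigenvectors -/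
def BB (H S : Subgroup E) : Set LL := {b : LL | b ≠ 0 ∧ (∀ s ∈ S, ac s b = b) ∧ ∀ g ∈ H, ac g b = b ∨ ac g b = -b}

theorem card_BB {H S : Subgroup E} {y : E} (hg : GP H S y) : ∃ x y : ℕ,
    {v : LL | ∀ s ∈ S, ac s v = v}.ncard ≤ x * y ∧ x + y ≤ (BB H S).ncard + 2 :=
  by
  have key := card_abs (G := E) (V := LL) ac
  have key1 := key ac_mul ac_add ac_neg
  have key2 := key1 lin3 (S := S) (H := H)
  exact key2 hg.cj hg.two

theorem ne_bot {H S : Subgroup E} {y : E} (hg : GP H S y) : H ≠ ⊥ := by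
  intro h
  have h4 := hg.le hg.mem
  rw [h, Subgroup.mem_bot] at h4
  exact hg.ne h4

theorem count_BB {H S : Subgroup E} (hH : IsCoatom H) {y : E} (hg : GP H S y) :
    (BB H S).ncard * Nat.card ↥(Subgroup.centralizer {y}) ≤ 13 * Nat.card {v : LL // ac y v = v} := by
  have hfin : (BB H S).Finite := Set.toFinite _
  have h6 := End.count hH (ne_bot hg) (y := y) (B := hfin.toFinset)
    (fun b hb => by
      have hb' : b ∈ BB H S := hfin.mem_toFinset.1 hb
      exact ⟨hb'.1, hb'.2.1 _ hg.mem, hb'.2.2⟩) hg.cent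
  have h7 : hfin.toFinset.card = (BB H S).ncard := (Set.ncard_eq_toFinset_card _ hfin).symm
  rwa [h7] at h6

/-- COUNT -/
theorem hcount {H S : Subgroup E} (hH : IsCoatom H) {y : E} (hg : GP H S y) {n a : ℕ}
    (h1 : n * Nat.card ↥(Subgroup.centralizer {y}) > 13 * Nat.card {v : LL // ac y v = v})
    (h2 : 3 ^ a ≤ {v : LL | ∀ s ∈ S, ac s v = v}.ncard)
    (h3 : ∀ x y m : ℕ, 3 ^ a ≤ x * y → x + y ≤ m + 2 → n ≤ m) : False := by
  obtain ⟨x, z, hx, hz⟩ := card_BB hg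
  have h5 := h3 x z _ (h2.trans hx) hz
  have h6 := count_BB hH hg
  have h7 := Nat.mul_le_mul_right (Nat.card ↥(Subgroup.centralizer {y})) h5
  exact absurd (h7.trans h6) (not_le.2 h1)

theorem main {H S : Subgroup E} (hH : IsCoatom H) {y : E} (hg : GP H S y) {a : ℕ}
    (hfr : {v : LL | ∀ s ∈ S, ac s v = v}.ncard = 3 ^ a)
    (hd : (Partner 13 y ∧ 1 ≤ a) ∨
      (16 * Nat.card ↥(Subgroup.centralizer {y}) > 13 * Nat.card {v : LL // ac y v = v} ∧ 4 ≤ a) ∨
      (484 * Nat.card ↥(Subgroup.centralizer {y}) > 13 * Nat.card {v : LL // ac y v = v} ∧ 11 ≤ a)) : False := by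
  rcases hd with ⟨⟨x', e1, e2, e3, e4⟩, ha⟩ | ⟨hc, ha⟩ | ⟨hc, ha⟩
  · -- CENTRE
    have hS1 : S ≠ ⊥ := by
      intro h
      have h4 := hg.mem
      rw [h, Subgroup.mem_bot] at h4
      exact hg.ne h4
    have hv : fixV S ≠ ⊥ := by
      intro h
      have h5 : {v : LL | ∀ s ∈ S, ac s v = v} ⊆ {0} := by
        intro v hv
        have h6 : v ∈ fixV S := hv
        rwa [h, Submodule.mem_bot] at h6
      have h6 := Set.ncard_le_ncard h5 (Set.toFinite _)
      rw [hfr, Set.ncard_singleton] at h6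
      have h7 := Nat.pow_le_pow_right (show 0 < 3 by norm_num) ha
      omega
    exact e3 (hg.zp x' (mem_of_partner hH hS1 hg.nm hv hg.mem e4) e2)
  · exact hcount hH hg (a := 4) hc ((Nat.pow_le_pow_right (by norm_num) ha).trans (le_of_eq hfr.symm))
      fun x y m h h' => sixteen h h'
  · exact hcount hH hg (a := 11) hc ((Nat.pow_le_pow_right (by norm_num) ha).trans (le_of_eq hfr.symm))
      fun x y m h h' => many h h'

theorem ncard_fix {G : Type*} [Group G] (F : G →* E) :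
    {v : LL | ∀ s ∈ F.range, ac s v = v}.ncard = 3 ^ finrank (ZMod 3) (fixV F.range) := by
  have h5 : {v : LL | ∀ s ∈ F.range, ac s v = v} = (fixV F.range : Set LL) := rfl
  rw [h5, ← Nat.card_coe_set_eq]
  have h6 : Nat.card ↥(fixV F.range) = Nat.card (ZMod 3) ^ finrank (ZMod 3) ↥(fixV F.range) :=
    Module.natCard_eq_pow_finrank (K := ZMod 3)
  rw [Nat.card_zmod] at h6
  exact h6

theorem fix_eq (F : Q →* E) : (fixP (rp F) fun _ => True) = fixV F.range := by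
  ext v
  constructor
  · rintro h _ ⟨q, rfl⟩
    exact h q trivial
  · intro h q _
    exact h _ ⟨q, rfl⟩

/-- **END13** -/
theorem row13 (h1 : R1) (h2 : R2) (h3 : Num13) (h4 : Grp13.{u}) : Row13.{u} := by
  intro K _ _ hK H he hH
  obtain ⟨φ, hφr, hφ1, hφ2, hφc⟩ := h4 K hK ↥H he
  have hN : (generalizedFittingSubgroup ↥H).Normal := Lib.GenFitting.genFitting_normal
  rw [← hφr] at hN
  have hd := dims h1 h2 h3 (H.subtype.comp φ) fun g => by
    rw [← hφ1]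
    exact ⟨fun h => Subtype.ext h, fun h => congrArg Subtype.val h⟩
  rw [fix_eq] at hd
  exact main hH (gp φ hN hφ1 hφ2 hφc) (ncard_fix (H.subtype.comp φ)) hd

end Cfsg.Agent.H108.L13
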